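import Mathlib

/-!
Commuting conjugates and small abelian subgroups.
-/

set_option autoImplicit false

namespace Cfsg.Agent.SU3Pres

variable {G : Type*} [Group G] {a b u v : G}

/-- Conjugation. -/
def cg (g : G) : G →* G := (MulAut.conj g).toMonoidHom

theorem cg_def (g x : G) : cg g x = g * x * g⁻¹ := rfl

theorem cg_one (x : G) : cg 1 x = x := by simp [cg_def]

theorem cg_cg (g k x : G) : cg g (cg k x) = cg (g * k) x := by simp only [cg_def]; group

theorem commute_forward (hab : Commute a b) (hu : cg b u = u * cg a u) (hv : cg b v = v * cg a v)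
    (h0 : Commute u v) (h1 : Commute u (cg a v)) : ∀ n : ℕ, Commute u (cg (a ^ n) v) := by
  intro n
  induction n using Nat.strong_induction_on with
  | _ n ih =>
    rcases n with _ | _ | n
    · simpa [cg_def] using h0
    · simpa using h1
    · have hs : ∀ k : ℕ, Commute u (cg (a ^ k) v) → Commute (cg a u) (cg (a ^ (k + 1)) v) := fun k hk => by
        have := hk.map (cg a)
        rwa [cg_cg, ← pow_succ'] at this
      set x := cg (a ^ (n + 1)) v with hx
      set y := cg (a ^ (n + 2)) v with hy
      have hbx : cg b x = x * y := by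
        rw [hx, cg_cg, ← (hab.pow_left (n + 1)).eq, ← cg_cg, hv, map_mul, cg_cg, ← pow_succ]
      have h2 : Commute (u * cg a u) (x * y) := by
        have := (ih (n + 1) (by omega)).map (cg b)
        rwa [hu, hbx] at this
      have h3 : Commute (u * cg a u) x := (ih (n + 1) (by omega)).mul_left (hs n (ih n (by omega)))
      have h4 : Commute (u * cg a u) y := by simpa using h3.inv_right.mul_right h2
      have := h4.mul_left (hs (n + 1) (ih (n + 1) (by omega))).inv_left
      rwa [mul_inv_cancel_right] at this

theorem commute_backward_one (hu : cg b u = u * cg a u) (hv : cg b v = v * cg a v)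
    (h0 : Commute u v) (h1 : Commute u (cg a v)) : Commute v (cg a u) := by
  have h2 : Commute (u * cg a u) (v * cg a v) := by
    have := h0.map (cg b)
    rwa [hu, hv] at this
  have h3 : Commute (u * cg a u) (cg a v) := h1.mul_left (h0.map (cg a))
  have h4 : Commute (u * cg a u) v := by
    have := h2.mul_right h3.inv_right
    rwa [mul_inv_cancel_right] at this
  have := h0.inv_left.mul_left h4
  rw [inv_mul_cancel_left] at this
  exact this.symm

theorem commute_two (hab : Commute a b) (hu : cg b u = u * cg a u) (hv : cg b v = v * cg a v)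
    (h0 : Commute u v) (h1 : Commute u (cg a v)) (j l : ℕ) : Commute (cg (a ^ j) u) (cg (a ^ l) v) := by
  rcases Nat.le_total j l with h | h
  · obtain ⟨n, rfl⟩ := Nat.exists_eq_add_of_le h
    have := (commute_forward hab hu hv h0 h1 n).map (cg (a ^ j))
    rwa [cg_cg, ← pow_add] at this
  · obtain ⟨n, rfl⟩ := Nat.exists_eq_add_of_le h
    have := (commute_forward hab hv hu h0.symm (commute_backward_one hu hv h0 h1) n).map (cg (a ^ l))
    rw [cg_cg, ← pow_add] at this
    exact this.symm

/-- An abelian subgroup of exponent `p` with `d` generators has order at most `p ^ d`. -/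
theorem card_closure_le {ι : Type*} [Fintype ι] {p : ℕ} (hp : 0 < p) (x : ι → G)
    (hc : ∀ i j, Commute (x i) (x j)) (hx : ∀ i, x i ^ p = 1) :
    Finite (Subgroup.closure (Set.range x)) ∧
      Nat.card (Subgroup.closure (Set.range x)) ≤ p ^ Fintype.card ι := by
  classical
  set K := Subgroup.closure (Set.range x)
  haveI hK : IsMulCommutative K := Subgroup.isMulCommutative_closure (by
    rintro _ ⟨i, rfl⟩ _ ⟨j, rfl⟩; exact hc i j)
  letI : CommGroup K := { (inferInstance : Group K) with mul_comm := fun g h => hK.is_comm.comm g h }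
  let v : ι → K := fun i => ⟨x i, Subgroup.subset_closure ⟨i, rfl⟩⟩
  have hv : ∀ i, v i ^ p = 1 := fun i => Subtype.ext (by simpa using hx i)
  let f : (ι → Fin p) → K := fun e => ∏ i, v i ^ (e i : ℕ)
  have hmul : ∀ e e', ∃ e'', f e * f e' = f e'' := fun e e' =>
    ⟨fun i => ⟨((e i : ℕ) + e' i) % p, Nat.mod_lt _ hp⟩, by
      simp only [f, ← Finset.prod_mul_distrib, ← pow_add]
      exact Finset.prod_congr rfl fun i _ => pow_eq_pow_mod _ (hv i)⟩
  have hsingle : ∀ i (m : ℕ), ∃ e, f e = v i ^ m := fun i m => by
    refine ⟨Function.update (fun _ => (⟨0, hp⟩ : Fin p)) i ⟨m % p, Nat.mod_lt _ hp⟩, ?_⟩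
    simp only [f]
    rw [Finset.prod_eq_single i]
    · simp [← pow_eq_pow_mod _ (hv i)]
    · intro j _ hj; simp [hj]
    · simp
  have hsurj : Function.Surjective f := by
    intro g
    obtain ⟨g, hg⟩ := g
    have h0 : f (fun _ => ⟨0, hp⟩) = 1 := by simp [f]
    induction hg using Subgroup.closure_induction'' with
    | mem y hy =>
      obtain ⟨i, rfl⟩ := hy
      obtain ⟨e, he⟩ := hsingle i 1
      exact ⟨e, he.trans (pow_one _)⟩
    | inv_mem y hy =>
      obtain ⟨i, rfl⟩ := hy
      obtain ⟨e, he⟩ := hsingle i (p - 1)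
      refine ⟨e, he.trans ?_⟩
      refine Subtype.ext ?_
      show x i ^ (p - 1) = (x i)⁻¹
      exact eq_inv_of_mul_eq_one_left (by rw [← pow_succ, Nat.sub_add_cancel hp, hx])
    | one => exact ⟨_, h0⟩
    | mul y z hy hz ihy ihz =>
      obtain ⟨e, he⟩ := ihy
      obtain ⟨e', he'⟩ := ihz
      obtain ⟨e'', he''⟩ := hmul e e'
      exact ⟨e'', by rw [← he'', he, he']; rfl⟩
  refine ⟨Finite.of_surjective f hsurj, (Nat.card_le_card_of_surjective f hsurj).trans (le_of_eq ?_)⟩
  simp

/-- Conjugation preserves a subgroup if it moves its generators into it. -/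
theorem closure_conj_le {s : Set G} {g : G} (h : ∀ x ∈ s, cg g x ∈ Subgroup.closure s) :
    ∀ x ∈ Subgroup.closure s, cg g x ∈ Subgroup.closure s := fun x hx => by
  induction hx using Subgroup.closure_induction with
  | mem x hx => exact h x hx
  | one => simp [one_mem]
  | mul x y _ _ hx hy => rw [map_mul]; exact mul_mem hx hy
  | inv x _ hx => rw [map_inv]; exact inv_mem hx

theorem pow_conj_mem {K : Subgroup G} {g : G} (h : ∀ x ∈ K, cg g x ∈ K) (n : ℕ) :
    ∀ x ∈ K, cg (g ^ n) x ∈ K := by
  induction n with
  | zero => simp [cg_def]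
  | succ n ih => intro x hx; rw [pow_succ', ← cg_cg]; exact h _ (ih x hx)

end Cfsg.Agent.SU3Pres
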