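import Cfsg.Agent.SU3Pres.Mat
import Cfsg.Agent.SU3Pres.Comm

/-!
A group with three generators satisfying the relations maps bijectively to the unitary group.
-/

set_option autoImplicit false
set_option maxHeartbeats 1000000

namespace Cfsg.Agent.SU3Pres

open Cfsg.Agent.Known

/-- Numerical parameters of the presentation. -/
structure Par where
  /-- exponent of the first shift -/
  ka : ℕ
  /-- exponent of the second shift -/
  kb : ℕ
  /-- exponent for the centre -/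
  kz : ℕ
  /-- degree of the centre -/
  dZ : ℕ
  /-- inner degree of the root group -/
  dU : ℕ
  /-- outer degree of the root group -/
  rU : ℕ
  /-- outer degree for centrality -/
  rL : ℕ

variable {G : Type*} [Group G]

/-- The central root element. -/
def zOf (u h : G) : G := u * cg h u * u⁻¹ * (cg h u)⁻¹

/-- Generators of the centre. -/
def GZ (P : Par) (u h : G) : Set G := Set.range fun j : Fin P.dZ => cg (h ^ (j : ℕ)) (zOf u h)

/-- The centre of the root group. -/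
abbrev ZS (P : Par) (u h : G) : Subgroup G := Subgroup.closure (GZ P u h)

/-- Generators for centrality. -/
def GLs (P : Par) (q : ℕ) (u h : G) : Set G :=
  Set.range (fun x : ℕ × Fin P.rL => cg ((h ^ (q - 1)) ^ x.1 * h ^ (x.2 : ℕ)) u) ∪ GZ P u h

/-- Generators of the first part of the root group. -/
def G0 (P : Par) (u h : G) : Set G :=
  Set.range (fun j : Fin P.dU => cg ((h ^ P.ka) ^ (j : ℕ)) u) ∪ GZ P u h

/-- Generators of the root group. -/
def GU (P : Par) (u h : G) : Set G :=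
  Set.range (fun x : Fin P.rU × Fin P.dU => cg ((h ^ P.ka) ^ (x.2 : ℕ) * h ^ (x.1 : ℕ)) u) ∪ GZ P u h

/-- The root group. -/
abbrev UG (P : Par) (u h : G) : Subgroup G := Subgroup.closure (GU P u h)

/-- The big cell. -/
def InC (P : Par) (u h w g : G) : Prop :=
  ∃ u1 ∈ UG P u h, ∃ n : ℕ, ∃ u2 ∈ UG P u h, g = u1 * h ^ n * w * u2

variable {F : Type*} [Field F] [Fintype F] {φ : F →+* F} {q p : ℕ} {ζ : Fˣ}

omit [Fintype F] in
/-- The ratio used for the generator. -/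
def sg (q : ℕ) (ζ : Fˣ) : F := (ζ : F) ^ (q - 1)

omit [Fintype F] in
/-- The parameters of the generator with first coordinate `a`. -/
def bOf (φ : F →+* F) (q : ℕ) (ζ : Fˣ) (a : F) : F := nm φ a / (sg q ζ - 1)

/-- The parameters fit the field. -/
structure Fit (S : Setup φ q p ζ) (P : Par) : Prop where
  rU0 : 0 < P.rU
  dU0 : 0 < P.dU
  dZ0 : 0 < P.dZ
  rL0 : 0 < P.rL
  cardU : p ^ (P.dU * P.rU) = q ^ 2
  cardZ : p ^ P.dZ = q
  spanZ : ∀ A : AddSubgroup F, ∀ c : F, (∀ j < P.dZ, nm φ (ζ : F) ^ j * c ∈ A) → ∀ s, φ s = s → s * c ∈ A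
  spanU : ∀ A : AddSubgroup F,
    (∀ i < P.rU, ∀ j < P.dU, (wt φ ζ ^ P.ka) ^ j * wt φ ζ ^ i ∈ A) → ∀ a, a ∈ A

/-- The relations. -/
structure Holds (S : Setup φ q p ζ) (P : Par) (π : G →* IsoG φ) (u h w : G) : Prop where
  ww : w * w = 1
  whw : w * h * w = h ^ (-(q : ℤ))
  zp : zOf u h ^ p = 1
  zc : Commute (zOf u h) (cg h (zOf u h))
  zk : cg (h ^ P.kz) (zOf u h) = zOf u h * cg h (zOf u h)
  zd : cg (h ^ P.dZ) (zOf u h) ∈ ZS P u h
  zu : ∀ i < P.rL, Commute (zOf u h) (cg (h ^ i) u)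
  hL : cg (h ^ P.rL) u ∈ Subgroup.closure (GLs P q u h)
  up : u ^ p ∈ ZS P u h
  cm0 : ∀ i < P.rU, u * cg (h ^ i) u * u⁻¹ * (cg (h ^ i) u)⁻¹ ∈ ZS P u h
  cm1 : ∀ i < P.rU, u * cg (h ^ P.ka) (cg (h ^ i) u) * u⁻¹ * (cg (h ^ P.ka) (cg (h ^ i) u))⁻¹ ∈ ZS P u h
  bu : (u * cg (h ^ P.ka) u)⁻¹ * cg (h ^ P.kb) u ∈ ZS P u h
  hU : cg (h ^ P.rU) u ∈ UG P u h
  aU : cg ((h ^ P.ka) ^ P.dU) u ∈ Subgroup.closure (G0 P u h)
  base : ∀ i < 3, ∃ x ∈ UG P u h,
    π x = uE S ((ζ : F) ^ i) (bOf φ q ζ ((ζ : F) ^ i)) ∧ InC P u h w (w * x * w)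
  central : InC P u h w (w * zOf u h * w)
  pu : π u = uE S 1 (bOf φ q ζ 1)
  ph : π h = tE S ζ
  pw : π w = wE
  gens : Subgroup.closure ({u, h, w} : Set G) = ⊤

section field

variable (S : Setup φ q p ζ)
include S

theorem sg_ne_one : sg q ζ ≠ 1 := by
  intro e
  have h := (pow_eq_one_iff S _).1 e
  have hq := three_le_q S
  have := Nat.le_of_dvd (by omega) h
  rw [N_eq S] at this
  have : (q - 1) * 1 < (q - 1) * (q + 1) := Nat.mul_lt_mul_of_pos_left (by omega) (by omega)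
  omega

theorem phi_sg : φ (sg q ζ) = (sg q ζ)⁻¹ := by
  refine eq_inv_of_mul_eq_one_left ?_
  rw [sg, phi_pow S, ← pow_add, pow_eq_one_iff S, N_eq S]
  exact ⟨1, by rw [mul_one, ← Nat.succ_mul, Nat.succ_eq_add_one, mul_comm]⟩

theorem ok_bOf (a : F) : Ok φ a (bOf φ q ζ a) := by
  have h1 : sg q ζ - 1 ≠ 0 := sub_ne_zero.2 (sg_ne_one S)
  have h0 : sg q ζ ≠ 0 := pow_ne_zero _ ζ.ne_zero
  have h2 : (sg q ζ)⁻¹ - 1 ≠ 0 := sub_ne_zero.2 (inv_ne_one.2 (sg_ne_one S))
  rw [Ok, bOf, map_div₀, map_sub, map_one, phi_sg S, map_nm S.frob.invol]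
  unfold nm
  field_simp
  rw [sub_ne_zero] at h1
  have h3 : 1 - sg q ζ ≠ 0 := sub_ne_zero.2 (Ne.symm h1)
  field_simp
  ring

end field

theorem G0_sub_GU {P : Par} {u h : G} (hr : 0 < P.rU) : G0 P u h ⊆ GU P u h := by
  rintro x (⟨j, rfl⟩ | hx)
  · exact Or.inl ⟨(⟨0, hr⟩, j), by simp⟩
  · exact Or.inr hx

variable {S : Setup φ q p ζ} {P : Par} {π : G →* IsoG φ} {u h w : G}
variable (H : Holds S P π u h w) (hP : Fit S P)
include H hP

theorem h_pow_N : h ^ (q ^ 2 - 1) = 1 := by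
  have e0 : w⁻¹ = w := inv_eq_of_mul_eq_one_right H.ww
  have e1 : cg w h = h ^ (-(q : ℤ)) := by rw [cg_def, e0, H.whw]
  have e2 : cg w (cg w h) = h := by rw [cg_cg, H.ww]; simp [cg_def]
  rw [e1, map_zpow, e1, ← zpow_mul, neg_mul_neg, ← Nat.cast_mul, zpow_natCast, ← sq] at e2
  have hN := N_pos S
  rw [show q ^ 2 = q ^ 2 - 1 + 1 by omega, pow_succ] at e2
  exact mul_eq_right.1 e2

theorem w_hpow (n : ℕ) : w * h ^ n = h ^ ((q ^ 2 - 1 - q) * n) * w := by
  have hq := three_le_q S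
  have h3 : 3 * q ≤ q ^ 2 := by rw [sq]; exact Nat.mul_le_mul_right q hq
  have e1 : cg w h = h ^ (q ^ 2 - 1 - q) := by
    rw [cg_def, inv_eq_of_mul_eq_one_right H.ww, H.whw, zpow_neg, zpow_natCast]
    refine inv_eq_of_mul_eq_one_right ?_
    rw [← pow_add, show q + (q ^ 2 - 1 - q) = q ^ 2 - 1 by omega, h_pow_N H hP]
  rw [pow_mul, ← e1, ← map_pow, cg_def, inv_mul_cancel_right]

theorem pi_cg (n : ℕ) {x : G} {a b : F} (hab : Ok φ a b) (hx : π x = uE S a b) :
    π (cg (h ^ n) x) = uE S (wt φ ζ ^ n * a) (nm φ (ζ : F) ^ n * b) := by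
  rw [cg_def, map_mul, map_mul, map_inv, map_pow, H.ph, hx, ← map_pow, tE_uE S _ hab, wt_pow,
    Units.val_pow_eq_pow_val, nm_pow]

theorem pi_u_pow (n : ℕ) : π (cg (h ^ n) u) =
    uE S (wt φ ζ ^ n) (nm φ (ζ : F) ^ n * bOf φ q ζ 1) := by
  rw [pi_cg H hP n (ok_bOf S 1) H.pu, mul_one]

theorem ok_z : Ok φ 0 (wt φ ζ - φ (wt φ ζ)) := by
  simp [Ok, S.frob.invol]

theorem pi_z : π (zOf u h) = uE S 0 (wt φ ζ - φ (wt φ ζ)) := by
  have o1 := ok_bOf S 1
  have o2 : Ok φ (wt φ ζ) (nm φ (ζ : F) * bOf φ q ζ 1) := by simpa using ok_tE S ζ o1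
  have e2 : π (cg h u) = uE S (wt φ ζ) (nm φ (ζ : F) * bOf φ q ζ 1) := by
    simpa using pi_u_pow H hP 1
  rw [zOf, mul_assoc, ← _root_.mul_inv_rev, map_mul, map_mul, map_inv, map_mul, e2, H.pu]
  rw [mul_inv_eq_iff_eq_mul, uE_mul S o1 o2, uE_mul S o2 o1,
    uE_mul S (ok_z H hP) (ok_add S o2 o1)]
  congr 1
  · ring
  · rw [map_one]; ring

theorem pi_z_pow (n : ℕ) :
    π (cg (h ^ n) (zOf u h)) = uE S 0 (nm φ (ζ : F) ^ n * (wt φ ζ - φ (wt φ ζ))) := by
  rw [pi_cg H hP n (ok_z H hP) (pi_z H hP), mul_zero]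

theorem Z_commute (j l : ℕ) : Commute (cg (h ^ j) (zOf u h)) (cg (h ^ l) (zOf u h)) :=
  commute_two (b := h ^ P.kz) ((Commute.refl h).pow_right _) H.zk H.zk (Commute.refl _) H.zc j l

theorem Z_small : Finite (ZS P u h) ∧ Nat.card (ZS P u h) ≤ q := by
  obtain ⟨h1, h2⟩ := card_closure_le S.hp.pos (fun j : Fin P.dZ => cg (h ^ (j : ℕ)) (zOf u h))
    (fun j l => Z_commute H hP j l) (fun j => by rw [← map_pow, H.zp, map_one])
  exact ⟨h1, h2.trans (le_of_eq (by rw [Fintype.card_fin, hP.cardZ]))⟩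

theorem Z_h : ∀ x ∈ ZS P u h, cg h x ∈ ZS P u h := by
  refine closure_conj_le ?_
  rintro _ ⟨j, rfl⟩
  rw [cg_cg, ← pow_succ']
  rcases Nat.lt_or_ge ((j : ℕ) + 1) P.dZ with hj | hj
  · exact Subgroup.subset_closure ⟨⟨_, hj⟩, rfl⟩
  · rw [show (j : ℕ) + 1 = P.dZ by have := j.2; omega]; exact H.zd

theorem z_mem : zOf u h ∈ ZS P u h := Subgroup.subset_closure ⟨⟨0, hP.dZ0⟩, by simp [cg_def]⟩

theorem pi_Z_sub {x : G} (hx : x ∈ ZS P u h) : ∃ c, φ c = -c ∧ π x = uE S 0 c := by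
  induction hx using Subgroup.closure_induction with
  | mem x hx =>
    obtain ⟨j, rfl⟩ := hx
    refine ⟨_, ?_, pi_z_pow H hP j⟩
    rw [map_mul, map_pow, map_nm S.frob.invol, map_sub, S.frob.invol]
    ring
  | one => exact ⟨0, by simp, by rw [map_one, uE_zero]⟩
  | mul x y _ _ hx hy =>
    obtain ⟨c, hc, ex⟩ := hx
    obtain ⟨d, hd, ey⟩ := hy
    refine ⟨c + d, by rw [map_add, hc, hd]; ring, ?_⟩
    rw [map_mul, ex, ey, uE_mul S (by simp [Ok, hc]) (by simp [Ok, hd])]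
    simp
  | inv x _ hx =>
    obtain ⟨c, hc, ex⟩ := hx
    refine ⟨-c, by rw [map_neg, hc], ?_⟩
    rw [map_inv, ex, uE_inv S (by simp [Ok, hc]), hc, neg_zero]

theorem pi_Z_surj {c : F} (hc : φ c = -c) : ∃ x ∈ ZS P u h, π x = uE S 0 c := by
  let A : AddSubgroup F :=
    { carrier := {c | φ c = -c ∧ ∃ x ∈ ZS P u h, π x = uE S 0 c}
      zero_mem' := ⟨by simp, 1, one_mem _, by rw [map_one, uE_zero]⟩
      add_mem' := fun {c d} ⟨hc, x, hx, ex⟩ ⟨hd, y, hy, ey⟩ =>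
        ⟨by rw [map_add, hc, hd]; ring, x * y, mul_mem hx hy, by
          rw [map_mul, ex, ey, uE_mul S (by simp [Ok, hc]) (by simp [Ok, hd])]; simp⟩
      neg_mem' := fun {c} ⟨hc, x, hx, ex⟩ => ⟨by rw [map_neg, hc], x⁻¹, inv_mem hx, by
        rw [map_inv, ex, uE_inv S (by simp [Ok, hc]), hc, neg_zero]⟩ }
  set c0 := wt φ ζ - φ (wt φ ζ) with hc0
  have h0 : φ c0 = -c0 := by rw [hc0, map_sub, S.frob.invol]; ring
  have hne : c0 ≠ 0 := sub_ne_zero.2 (Ne.symm (wt_fixed S))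
  have h1 : c / c0 * c0 ∈ A := hP.spanZ A c0 (fun j hj =>
    ⟨by rw [map_mul, map_pow, map_nm S.frob.invol, h0]; ring, _,
      Subgroup.subset_closure ⟨⟨j, hj⟩, rfl⟩, pi_z_pow H hP j⟩) _
    (by rw [map_div₀, hc, h0, neg_div_neg_eq])
  rw [div_mul_cancel₀ _ hne] at h1
  exact h1.2

theorem Z_inj {x y : G} (hx : x ∈ ZS P u h) (hy : y ∈ ZS P u h) (e : π x = π y) : x = y := by
  classical
  obtain ⟨hf, hc⟩ := Z_small H hP
  haveI := hf
  haveI : Fintype F := inferInstance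
  let f : ZS P u h → {c : F // φ c = -c} := fun x =>
    ⟨(pi_Z_sub H hP x.2).choose, (pi_Z_sub H hP x.2).choose_spec.1⟩
  have hspec : ∀ x : ZS P u h, π x = uE S 0 (f x).1 := fun x => (pi_Z_sub H hP x.2).choose_spec.2
  have huniq : ∀ {c d : F}, φ c = -c → φ d = -d → uE S 0 c = uE S 0 d → c = d := fun hc hd e => by
    rename_i c d
    have oc : Ok φ 0 c := by simp [Ok, hc]
    have od : Ok φ 0 d := by simp [Ok, hd]
    have e' := congrArg (fun g : IsoG φ => g.1.1 0 2) e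
    simpa [val_uE S oc, val_uE S od] using e'
  have hsurj : Function.Surjective f := fun c => by
    obtain ⟨x, hx, ex⟩ := pi_Z_surj H hP c.2
    exact ⟨⟨x, hx⟩, Subtype.ext (huniq (f ⟨x, hx⟩).2 c.2 ((hspec ⟨x, hx⟩).symm.trans ex))⟩
  have hb := hsurj.bijective_of_nat_card_le (by rw [card_skew S]; exact hc)
  exact congrArg Subtype.val (@hb.1 ⟨x, hx⟩ ⟨y, hy⟩ (Subtype.ext (huniq (f _).2 (f _).2
    ((hspec ⟨x, hx⟩).symm.trans (e.trans (hspec ⟨y, hy⟩))))))

theorem g_fix {x : G} (hx : x ∈ ZS P u h) (n : ℕ) : cg ((h ^ (q - 1)) ^ n) x = x := by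
  have h1 := pow_conj_mem (Z_h H hP) ((q - 1) * n) x hx
  rw [← pow_mul]
  refine Z_inj H hP h1 hx ?_
  obtain ⟨c, hc, ex⟩ := pi_Z_sub H hP hx
  rw [pi_cg H hP _ (by simp [Ok, hc]) ex, ex, mul_zero]
  congr 1
  rw [pow_mul, ← nm_pow, nm, phi_pow S, ← pow_add,
    (pow_eq_one_iff S _).2 (by rw [N_eq S, show q - 1 + q * (q - 1) = (q - 1) * (q + 1) by ring]), one_pow,
    one_mul]

theorem z_commute (n : ℕ) : Commute (zOf u h) (cg (h ^ n) u) := by
  have hg : ∀ x ∈ Subgroup.closure (GLs P q u h), cg (h ^ (q - 1)) x ∈ Subgroup.closure (GLs P q u h) := by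
    refine closure_conj_le ?_
    rintro x (⟨⟨j, i⟩, rfl⟩ | hx)
    · rw [cg_cg, ← mul_assoc, ← pow_succ']
      exact Subgroup.subset_closure (Or.inl ⟨(j + 1, i), rfl⟩)
    · have := g_fix H hP (Subgroup.subset_closure hx) 1
      rw [pow_one] at this
      rw [this]
      exact Subgroup.subset_closure (Or.inr hx)
  have hh : ∀ x ∈ Subgroup.closure (GLs P q u h), cg h x ∈ Subgroup.closure (GLs P q u h) := by
    refine closure_conj_le ?_
    rintro x (⟨⟨j, i⟩, rfl⟩ | hx)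
    · have e : h * ((h ^ (q - 1)) ^ j * h ^ (i : ℕ)) = (h ^ (q - 1)) ^ j * h ^ ((i : ℕ) + 1) := by
        rw [pow_succ', ← mul_assoc, ← mul_assoc, (((Commute.refl h).pow_right _).pow_right j).eq]
      rw [cg_cg, e]
      rcases Nat.lt_or_ge ((i : ℕ) + 1) P.rL with hi | hi
      · exact Subgroup.subset_closure (Or.inl ⟨(j, ⟨_, hi⟩), rfl⟩)
      · rw [← cg_cg, show (i : ℕ) + 1 = P.rL by have := i.2; omega]
        exact pow_conj_mem hg j _ H.hL
    · exact Subgroup.closure_mono Set.subset_union_right (Z_h H hP x (Subgroup.subset_closure hx))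
  have hu : u ∈ Subgroup.closure (GLs P q u h) :=
    Subgroup.subset_closure (Or.inl ⟨(0, ⟨0, hP.rL0⟩), by simp [cg_def]⟩)
  have hmem := pow_conj_mem hh n u hu
  have hle : Subgroup.closure (GLs P q u h) ≤ Subgroup.centralizer {zOf u h} := by
    rw [Subgroup.closure_le]
    rintro x (⟨⟨j, i⟩, rfl⟩ | ⟨j, rfl⟩) <;> rw [SetLike.mem_coe, Subgroup.mem_centralizer_singleton_iff]
    · have := (H.zu i i.2).map (cg ((h ^ (q - 1)) ^ j))
      rw [g_fix H hP (z_mem H hP) j, cg_cg] at this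
      exact this.eq.symm
    · have := Z_commute H hP 0 j
      simp only [pow_zero, cg_one] at this
      exact this.eq.symm
  exact (Subgroup.mem_centralizer_singleton_iff.1 (hle hmem)).symm

theorem Z_commute_u {x : G} (hx : x ∈ ZS P u h) (n : ℕ) : Commute x (cg (h ^ n) u) := by
  have hle : ZS P u h ≤ Subgroup.centralizer {cg (h ^ n) u} := by
    rw [Subgroup.closure_le]
    rintro x ⟨j, rfl⟩
    rw [SetLike.mem_coe, Subgroup.mem_centralizer_singleton_iff]
    have e := (z_commute H hP (n + (q ^ 2 - 1) * j - j)).map (cg (h ^ (j : ℕ)))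
    rw [cg_cg, ← pow_add] at e
    have hj : (j : ℕ) ≤ (q ^ 2 - 1) * j := Nat.le_mul_of_pos_left _ (N_pos S)
    rw [show (j : ℕ) + (n + (q ^ 2 - 1) * j - j) = n + (q ^ 2 - 1) * j by omega, pow_add h n, pow_mul,
      h_pow_N H hP, one_pow, mul_one] at e
    exact e.eq
  exact Subgroup.mem_centralizer_singleton_iff.1 (hle hx)

theorem U_sub_normalizer :
    u ∈ Subgroup.normalizer ((ZS P u h : Subgroup G) : Set G) ∧
      h ∈ Subgroup.normalizer ((ZS P u h : Subgroup G) : Set G) := by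
  haveI := (Z_small H hP).1
  have hh : ∀ x ∈ ZS P u h, cg h⁻¹ x ∈ ZS P u h := fun x hx => by
    have e : h⁻¹ = h ^ (q ^ 2 - 1 - 1) := by
      refine inv_eq_of_mul_eq_one_right ?_
      rw [← pow_succ', Nat.sub_add_cancel (N_pos S), h_pow_N H hP]
    rw [e]
    exact pow_conj_mem (Z_h H hP) _ x hx
  have hu : ∀ x ∈ ZS P u h, u * x * u⁻¹ = x := fun x hx => by
    have := Z_commute_u H hP hx 0
    simp only [pow_zero, cg_one] at this
    rw [mul_inv_eq_iff_eq_mul]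
    exact this.eq.symm
  constructor
  · rw [Subgroup.mem_normalizer_iff]
    intro x
    constructor
    · intro hx; rw [hu x hx]; exact hx
    · intro hx
      have e := hu _ hx
      have : u * x * u⁻¹ = x := by
        calc u * x * u⁻¹ = u⁻¹ * (u * (u * x * u⁻¹) * u⁻¹) * u := by group
          _ = u⁻¹ * (u * x * u⁻¹) * u := by rw [e]
          _ = x := by group
      rwa [this] at hx
  · rw [Subgroup.mem_normalizer_iff]
    intro x
    refine ⟨fun hx => Z_h H hP x hx, fun hx => ?_⟩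
    have := hh _ hx
    rwa [cg_def, inv_inv, show h⁻¹ * (h * x * h⁻¹) * h = x by group] at this

theorem U_small : Finite (UG P u h) ∧ Nat.card (UG P u h) ≤ q ^ 3 := by
  classical
  obtain ⟨hu', hh'⟩ := U_sub_normalizer H hP
  set M := Subgroup.normalizer ((ZS P u h : Subgroup G) : Set G) with hM
  have hZM : ZS P u h ≤ M := Subgroup.le_normalizer
  haveI : ((ZS P u h).subgroupOf M).Normal := Subgroup.normal_in_normalizer
  let ρ := QuotientGroup.mk' ((ZS P u h).subgroupOf M)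
  have hρ : ∀ m : M, (m : G) ∈ ZS P u h → ρ m = 1 := fun m hm => (QuotientGroup.eq_one_iff m).2 hm
  let mu : M := ⟨u, hu'⟩
  let mh : M := ⟨h, hh'⟩
  have hcomm : ∀ x y : M, ((x * y * x⁻¹ * y⁻¹ : M) : G) ∈ ZS P u h → Commute (ρ x) (ρ y) := fun x y hxy => by
    have := hρ _ hxy
    simp only [map_mul, map_inv] at this
    exact (commutatorElement_eq_one_iff_commute).1 this
  set a := ρ mh ^ P.ka
  set b := ρ mh ^ P.kb
  have hb : cg b (ρ mu) = ρ mu * cg a (ρ mu) := by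
    have := hρ ((mu * (mh ^ P.ka * mu * (mh ^ P.ka)⁻¹))⁻¹ * (mh ^ P.kb * mu * (mh ^ P.kb)⁻¹)) (by
      simpa [cg_def] using H.bu)
    simp only [map_mul, map_inv, map_pow] at this
    simp only [cg_def, a, b]
    exact (inv_mul_eq_one.1 this).symm
  have hc : ∀ i, i < P.rU → ∀ j l : ℕ,
      Commute (cg (a ^ j) (ρ mu)) (cg (a ^ l) (cg (ρ mh ^ i) (ρ mu))) := by
    intro i hi
    refine commute_two (b := b) (((Commute.refl _).pow_right _).pow_left _) hb ?_ ?_ ?_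
    · rw [cg_cg, ((((Commute.refl (ρ mh)).pow_right _).pow_left _) : Commute b (ρ mh ^ i)).eq, ← cg_cg, hb,
        map_mul, cg_cg, ((((Commute.refl (ρ mh)).pow_right _).pow_left _) : Commute (ρ mh ^ i) a).eq, ← cg_cg]
    · have := hcomm mu (mh ^ i * mu * (mh ^ i)⁻¹) (by simpa [cg_def] using H.cm0 i hi)
      simpa [cg_def] using this
    · have := hcomm mu (mh ^ P.ka * (mh ^ i * mu * (mh ^ i)⁻¹) * (mh ^ P.ka)⁻¹)
        (by simpa [cg_def] using H.cm1 i hi)
      simpa [cg_def, a] using this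
  let X : Fin P.rU × Fin P.dU → M ⧸ (ZS P u h).subgroupOf M :=
    fun x => cg (a ^ (x.2 : ℕ) * ρ mh ^ (x.1 : ℕ)) (ρ mu)
  have hX : ∀ x y, Commute (X x) (X y) := by
    have key : ∀ x y : Fin P.rU × Fin P.dU, (x.1 : ℕ) ≤ y.1 → Commute (X x) (X y) := by
      intro x y hxy
      obtain ⟨k, hk⟩ := Nat.exists_eq_add_of_le hxy
      have := (hc k (by have := y.1.2; omega) x.2 y.2).map (cg (ρ mh ^ (x.1 : ℕ)))
      simp only [cg_cg] at this
      have e1 : ρ mh ^ (x.1 : ℕ) * a ^ (x.2 : ℕ) = a ^ (x.2 : ℕ) * ρ mh ^ (x.1 : ℕ) :=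
        ((((Commute.refl (ρ mh)).pow_right _).pow_left _).pow_right _).eq
      have e2 : ρ mh ^ (x.1 : ℕ) * (a ^ (y.2 : ℕ) * ρ mh ^ k) = a ^ (y.2 : ℕ) * ρ mh ^ (y.1 : ℕ) := by
        rw [hk, pow_add, ← mul_assoc, ← mul_assoc,
          ((((Commute.refl (ρ mh)).pow_right _).pow_left _).pow_right _ :
            Commute (ρ mh ^ (x.1 : ℕ)) (a ^ (y.2 : ℕ))).eq]
      rwa [e1, e2] at this
    intro x y
    rcases le_total (x.1 : ℕ) y.1 with hxy | hxy
    · exact key x y hxy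
    · exact (key y x hxy).symm
  obtain ⟨hfX, hcX⟩ := card_closure_le S.hp.pos X hX (fun x => by
    have := hρ (mu ^ p) (by simpa using H.up)
    simp only [map_pow] at this
    simp only [X, ← map_pow, this, map_one])
  rw [Fintype.card_prod, Fintype.card_fin, Fintype.card_fin, mul_comm, hP.cardU] at hcX
  have hUM : UG P u h ≤ M := by
    rw [Subgroup.closure_le]
    rintro x (⟨⟨i, j⟩, rfl⟩ | hx)
    · exact ((mh ^ P.ka) ^ (j : ℕ) * mh ^ (i : ℕ) * mu * ((mh ^ P.ka) ^ (j : ℕ) * mh ^ (i : ℕ))⁻¹ : M).2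
    · exact hZM (Subgroup.subset_closure hx)
  let f : UG P u h →* M ⧸ (ZS P u h).subgroupOf M := ρ.comp (Subgroup.inclusion hUM)
  have hrange : f.range ≤ Subgroup.closure (Set.range X) := by
    rintro _ ⟨⟨g, hg⟩, rfl⟩
    show ρ ⟨g, hUM hg⟩ ∈ _
    have key : ∀ g, g ∈ UG P u h → ∃ hg : g ∈ M, ρ ⟨g, hg⟩ ∈ Subgroup.closure (Set.range X) := by
      intro g hg
      induction hg using Subgroup.closure_induction with
      | mem g hg =>
        refine ⟨hUM (Subgroup.subset_closure hg), ?_⟩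
        rcases hg with ⟨⟨i, j⟩, rfl⟩ | hg
        · refine Subgroup.subset_closure ⟨(i, j), ?_⟩
          have e : (⟨_, hUM (Subgroup.subset_closure (Or.inl ⟨(i, j), rfl⟩))⟩ : M) =
              (mh ^ P.ka) ^ (j : ℕ) * mh ^ (i : ℕ) * mu * ((mh ^ P.ka) ^ (j : ℕ) * mh ^ (i : ℕ))⁻¹ :=
            Subtype.ext rfl
          rw [e]
          simp [X, a, cg_def]
        · rw [hρ _ (Subgroup.subset_closure hg)]; exact one_mem _
      | one => exact ⟨one_mem _, by rw [show (⟨(1 : G), one_mem M⟩ : M) = 1 from rfl, map_one]; exact one_mem _⟩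
      | mul x y _ _ hx hy =>
        obtain ⟨hx, hx'⟩ := hx
        obtain ⟨hy, hy'⟩ := hy
        exact ⟨mul_mem hx hy, by
          rw [show (⟨x * y, mul_mem hx hy⟩ : M) = ⟨x, hx⟩ * ⟨y, hy⟩ from rfl, map_mul]; exact mul_mem hx' hy'⟩
      | inv x _ hx =>
        obtain ⟨hx, hx'⟩ := hx
        exact ⟨inv_mem hx, by
          rw [show (⟨x⁻¹, inv_mem hx⟩ : M) = ⟨x, hx⟩⁻¹ from rfl, map_inv]; exact inv_mem hx'⟩
    exact (key g hg).2
  obtain ⟨hfZ, hcZ⟩ := Z_small H hP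
  haveI := hfX
  haveI := hfZ
  have hker : ∀ x : f.ker, ((x : UG P u h) : G) ∈ ZS P u h := fun x =>
    (QuotientGroup.eq_one_iff (Subgroup.inclusion hUM x.1)).1 x.2
  let ι : f.ker → ZS P u h := fun x => ⟨_, hker x⟩
  have hι : Function.Injective ι := fun x y e => by
    have := congrArg (fun z : ZS P u h => (z : G)) e
    exact Subtype.ext (Subtype.ext this)
  haveI : Finite f.range := Finite.of_injective _ (Subgroup.inclusion_injective hrange)
  haveI : Finite f.ker := Finite.of_injective ι hι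
  have hidx : f.ker.index ≠ 0 := by
    rw [Subgroup.index_ker]; exact Nat.card_pos.ne'
  have hcard : Nat.card (UG P u h) = Nat.card f.ker * Nat.card f.range := by
    rw [← Subgroup.index_ker, Subgroup.card_mul_index]
  refine ⟨Nat.finite_of_card_ne_zero ?_, ?_⟩
  · rw [hcard]; exact Nat.mul_ne_zero Nat.card_pos.ne' Nat.card_pos.ne'
  · rw [hcard, show q ^ 3 = q * q ^ 2 by ring]
    exact Nat.mul_le_mul ((Nat.card_le_card_of_injective ι hι).trans hcZ)
      ((Nat.card_le_card_of_injective _ (Subgroup.inclusion_injective hrange)).trans hcX)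

theorem U_h : ∀ x ∈ UG P u h, cg h x ∈ UG P u h := by
  have hZ : ∀ n, ∀ x ∈ GZ P u h, cg (h ^ n) x ∈ UG P u h := fun n x hx =>
    Subgroup.closure_mono Set.subset_union_right (pow_conj_mem (Z_h H hP) n x (Subgroup.subset_closure hx))
  have ha0 : ∀ x ∈ Subgroup.closure (G0 P u h), cg (h ^ P.ka) x ∈ Subgroup.closure (G0 P u h) := by
    refine closure_conj_le ?_
    rintro x (⟨j, rfl⟩ | hx)
    · rw [cg_cg, ← pow_succ']
      rcases Nat.lt_or_ge ((j : ℕ) + 1) P.dU with hj | hj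
      · exact Subgroup.subset_closure (Or.inl ⟨⟨_, hj⟩, rfl⟩)
      · rw [show (j : ℕ) + 1 = P.dU by have := j.2; omega]; exact H.aU
    · exact Subgroup.closure_mono Set.subset_union_right
        (pow_conj_mem (Z_h H hP) _ x (Subgroup.subset_closure hx))
  have hpush : ∀ i : Fin P.rU, ∀ x ∈ Subgroup.closure (G0 P u h), cg (h ^ (i : ℕ)) x ∈ UG P u h := by
    intro i x hx
    have : Subgroup.closure (G0 P u h) ≤ (UG P u h).comap (cg (h ^ (i : ℕ))) := by
      rw [Subgroup.closure_le]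
      rintro y (⟨j, rfl⟩ | hy)
      · show cg _ (cg _ u) ∈ UG P u h
        rw [cg_cg, ((((Commute.refl h).pow_right P.ka).pow_left _).pow_right (j : ℕ)).eq]
        exact Subgroup.subset_closure (Or.inl ⟨(i, j), rfl⟩)
      · exact hZ _ y hy
    exact this hx
  have ha : ∀ x ∈ UG P u h, cg (h ^ P.ka) x ∈ UG P u h := by
    refine closure_conj_le ?_
    rintro x (⟨⟨i, j⟩, rfl⟩ | hx)
    · rw [cg_cg, ← mul_assoc, ← pow_succ',
        ← ((((Commute.refl h).pow_right P.ka).pow_left (i : ℕ)).pow_right ((j : ℕ) + 1)).eq, ← cg_cg]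
      refine hpush i _ ?_
      have := pow_conj_mem ha0 ((j : ℕ) + 1) u
        (Subgroup.subset_closure (Or.inl ⟨⟨0, hP.dU0⟩, by simp [cg_def]⟩))
      exact this
    · exact hZ _ x hx
  refine closure_conj_le ?_
  rintro x (⟨⟨i, j⟩, rfl⟩ | hx)
  · rw [cg_cg, ← mul_assoc, (((Commute.refl h).pow_right P.ka).pow_right (j : ℕ)).eq, mul_assoc, ← pow_succ']
    rcases Nat.lt_or_ge ((i : ℕ) + 1) P.rU with hi | hi
    · exact Subgroup.subset_closure (Or.inl ⟨(⟨_, hi⟩, j), rfl⟩)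
    · rw [← cg_cg, show (i : ℕ) + 1 = P.rU by have := i.2; omega]
      exact pow_conj_mem ha j _ H.hU
  · simpa using hZ 1 x hx

theorem u_mem : u ∈ UG P u h :=
  Subgroup.subset_closure (Or.inl ⟨(⟨0, hP.rU0⟩, ⟨0, hP.dU0⟩), by simp [cg_def]⟩)

theorem pi_U_sub {x : G} (hx : x ∈ UG P u h) : ∃ a b, Ok φ a b ∧ π x = uE S a b := by
  have hle : UG P u h ≤ (UM S).comap π := by
    rw [Subgroup.closure_le]
    rintro x (⟨⟨i, j⟩, rfl⟩ | hx)
    · simp only [SetLike.mem_coe, Subgroup.mem_comap]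
      rw [← pow_mul, ← pow_add]
      refine ⟨_, _, ?_, (pi_u_pow H hP _).symm⟩
      have := ok_tE S (ζ ^ (P.ka * (j : ℕ) + (i : ℕ))) (ok_bOf S 1)
      rwa [wt_pow, Units.val_pow_eq_pow_val, nm_pow, mul_one] at this
    · obtain ⟨c, hc, e⟩ := pi_Z_sub H hP (Subgroup.subset_closure hx)
      exact ⟨0, c, by simp [Ok, hc], e.symm⟩
  obtain ⟨a, b, hab, e⟩ := hle hx
  exact ⟨a, b, hab, e.symm⟩

theorem pre {a b : F} (hab : Ok φ a b) : ∃ x ∈ UG P u h, π x = uE S a b := by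
  let A : AddSubgroup F :=
    { carrier := {a | ∃ b, Ok φ a b ∧ ∃ x ∈ UG P u h, π x = uE S a b}
      zero_mem' := ⟨0, by simp [Ok], 1, one_mem _, by rw [map_one, uE_zero]⟩
      add_mem' := fun {a a'} ⟨b, h1, x, hx, ex⟩ ⟨b', h2, y, hy, ey⟩ =>
        ⟨_, ok_add S h1 h2, x * y, mul_mem hx hy, by rw [map_mul, ex, ey, uE_mul S h1 h2]⟩
      neg_mem' := fun {a} ⟨b, h1, x, hx, ex⟩ =>
        ⟨_, ok_inv S h1, x⁻¹, inv_mem hx, by rw [map_inv, ex, uE_inv S h1]⟩ }
  obtain ⟨b', hb', x, hx, ex⟩ := hP.spanU A (fun i hi j hj => by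
    refine ⟨nm φ (ζ : F) ^ (P.ka * j + i) * bOf φ q ζ 1, ?_, _,
      Subgroup.subset_closure (Or.inl ⟨(⟨i, hi⟩, ⟨j, hj⟩), rfl⟩), ?_⟩
    · have := ok_tE S (ζ ^ (P.ka * j + i)) (ok_bOf S 1)
      rw [wt_pow, Units.val_pow_eq_pow_val, nm_pow, mul_one, pow_add, pow_mul] at this
      exact this
    · simp only []
      rw [← pow_mul, ← pow_add, pi_u_pow H hP, ← pow_mul, ← pow_add]) a
  have hc : φ (b - b') = -(b - b') := by
    unfold Ok at hab hb'
    rw [map_sub]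
    linear_combination hab - hb'
  obtain ⟨y, hy, ey⟩ := pi_Z_surj H hP hc
  refine ⟨x * y, mul_mem hx (Subgroup.closure_mono Set.subset_union_right hy), ?_⟩
  rw [map_mul, ex, ey, uE_mul S hb' (by simp [Ok, hc])]
  simp

theorem U_inj {x y : G} (hx : x ∈ UG P u h) (hy : y ∈ UG P u h) (e : π x = π y) : x = y := by
  obtain ⟨hf, hc⟩ := U_small H hP
  haveI := hf
  let f : UG P u h → UM S := fun x => ⟨π x, by
    obtain ⟨a, b, hab, e⟩ := pi_U_sub H hP x.2; exact ⟨a, b, hab, e.symm⟩⟩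
  have hsurj : Function.Surjective f := by
    rintro ⟨g, a, b, hab, rfl⟩
    obtain ⟨x, hx, ex⟩ := pre H hP hab
    exact ⟨⟨x, hx⟩, Subtype.ext ex⟩
  have hb := hsurj.bijective_of_nat_card_le (by rw [card_UM S]; exact hc)
  exact congrArg Subtype.val (@hb.1 ⟨x, hx⟩ ⟨y, hy⟩ (Subtype.ext e))

theorem U_hpow {x : G} (hx : x ∈ UG P u h) (n : ℕ) : h ^ n * x = cg (h ^ n) x * h ^ n ∧ cg (h ^ n) x ∈ UG P u h :=
  ⟨by simp [cg_def], pow_conj_mem (U_h H hP) n x hx⟩

theorem U_hpow' {x : G} (hx : x ∈ UG P u h) (n : ℕ) :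
    ∃ y ∈ UG P u h, x * h ^ n = h ^ n * y := by
  refine ⟨cg (h ^ ((q ^ 2 - 1) * n - n)) x, pow_conj_mem (U_h H hP) _ x hx, ?_⟩
  have e : (h ^ n)⁻¹ = h ^ ((q ^ 2 - 1) * n - n) := by
    refine inv_eq_of_mul_eq_one_right ?_
    rw [← pow_add, Nat.add_sub_cancel' (Nat.le_mul_of_pos_left _ (N_pos S)), pow_mul, h_pow_N H hP, one_pow]
  rw [← e, cg_def]
  group

theorem C_mul_U {g x : G} (hg : InC P u h w g) (hx : x ∈ UG P u h) : InC P u h w (g * x) := by
  obtain ⟨u1, h1, n, u2, h2, rfl⟩ := hg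
  exact ⟨u1, h1, n, u2 * x, mul_mem h2 hx, by group⟩

theorem U_mul_C {g x : G} (hg : InC P u h w g) (hx : x ∈ UG P u h) : InC P u h w (x * g) := by
  obtain ⟨u1, h1, n, u2, h2, rfl⟩ := hg
  exact ⟨x * u1, mul_mem hx h1, n, u2, h2, by group⟩

theorem h_mul_C {g : G} (hg : InC P u h w g) (k : ℕ) : InC P u h w (h ^ k * g) := by
  obtain ⟨u1, h1, n, u2, h2, rfl⟩ := hg
  obtain ⟨e, he⟩ := U_hpow H hP h1 k
  refine ⟨_, he, k + n, u2, h2, ?_⟩
  calc h ^ k * (u1 * h ^ n * w * u2) = h ^ k * u1 * h ^ n * w * u2 := by group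
    _ = _ := by rw [e, pow_add]; group

theorem C_mul_h {g : G} (hg : InC P u h w g) (k : ℕ) : InC P u h w (g * h ^ k) := by
  obtain ⟨u1, h1, n, u2, h2, rfl⟩ := hg
  obtain ⟨y, hy, e⟩ := U_hpow' H hP h2 k
  refine ⟨u1, h1, n + (q ^ 2 - 1 - q) * k, y, hy, ?_⟩
  calc u1 * h ^ n * w * u2 * h ^ k = u1 * h ^ n * w * (u2 * h ^ k) := by group
    _ = u1 * h ^ n * (w * h ^ k) * y := by rw [e]; group
    _ = _ := by rw [w_hpow H hP, pow_add]; group

omit hP in
/-- `w x w` is in the big cell. -/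
def Good (_H : Holds S P π u h w) (a b : F) : Prop :=
  ∃ x ∈ UG P u h, π x = uE S a b ∧ InC P u h w (w * x * w)

theorem good_conj {a b : F} (hab : Ok φ a b) (hg : Good H a b) (n : ℕ) :
    Good H (wt φ ζ ^ n * a) (nm φ (ζ : F) ^ n * b) := by
  obtain ⟨x, hx, ex, hC⟩ := hg
  refine ⟨cg (h ^ n) x, pow_conj_mem (U_h H hP) n x hx, pi_cg H hP n hab ex, ?_⟩
  obtain ⟨e, -⟩ := U_hpow H hP hx n
  obtain ⟨m, hm⟩ : ∃ m, (h ^ n)⁻¹ = h ^ m := ⟨(q ^ 2 - 1) * n - n, inv_eq_of_mul_eq_one_right (by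
    rw [← pow_add, Nat.add_sub_cancel' (Nat.le_mul_of_pos_left _ (N_pos S)), pow_mul, h_pow_N H hP, one_pow])⟩
  have e2 : w * cg (h ^ n) x * w = h ^ ((q ^ 2 - 1 - q) * n) * (w * x * w) * h ^ ((q ^ 2 - 1 - q) * m) := by
    rw [cg_def, hm]
    have hw : h ^ m * w = w * h ^ ((q ^ 2 - 1 - q) * m) := by
      calc h ^ m * w = w * w * h ^ m * w := by rw [H.ww, one_mul]
        _ = w * (w * h ^ m) * w := by group
        _ = w * (h ^ ((q ^ 2 - 1 - q) * m) * w) * w := by rw [w_hpow H hP]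
        _ = w * h ^ ((q ^ 2 - 1 - q) * m) * (w * w) := by group
        _ = _ := by rw [H.ww, mul_one]
    calc w * (h ^ n * x * h ^ m) * w = (w * h ^ n) * x * (h ^ m * w) := by group
      _ = _ := by rw [w_hpow H hP, hw]; group
  rw [e2]
  exact C_mul_h H hP (h_mul_C H hP hC _) _

theorem good_central {c : F} (hc : φ c = -c) (hc0 : c ≠ 0) : Good H 0 c := by
  set c0 := wt φ ζ - φ (wt φ ζ) with hc0'
  have hne : c0 ≠ 0 := sub_ne_zero.2 (Ne.symm (wt_fixed S))
  have hz : Good H 0 c0 := ⟨_, Subgroup.closure_mono Set.subset_union_right (z_mem H hP), pi_z H hP, H.central⟩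
  have hs : φ (c / c0) = c / c0 := by
    rw [map_div₀, hc, hc0', map_sub, S.frob.invol, ← neg_sub (wt φ ζ), neg_div_neg_eq]
  obtain ⟨m, hm⟩ := exists_power S _ (div_ne_zero hc0 hne)
  rw [hm] at hs
  obtain ⟨k, rfl⟩ := (fixed_pow_iff S m).1 hs
  have := good_conj H hP (ok_z H hP) hz k
  rw [mul_zero, ← hc0', show nm φ (ζ : F) ^ k = c / c0 by
    rw [hm, pow_mul, nm, S.frob.hφ, ← pow_succ'], div_mul_cancel₀ _ hne] at this
  exact this

theorem good_base {a b : F} (hab : Ok φ a b) (ha : a ≠ 0) (hσ : -φ b / b = sg q ζ) : Good H a b := by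
  obtain ⟨i, hi, n, rfl⟩ := exists_class S a ha
  obtain ⟨x, hx, ex, hC⟩ := H.base i hi
  have := good_conj H hP (ok_bOf S _) ⟨x, hx, ex, hC⟩ n
  convert this using 1
  have h1 : sg q ζ - 1 ≠ 0 := sub_ne_zero.2 (sg_ne_one S)
  have hb0 : b ≠ 0 := by
    intro e
    rw [e, map_zero, neg_zero, zero_div] at hσ
    exact pow_ne_zero _ ζ.ne_zero hσ.symm
  have hφb : φ b = -(sg q ζ * b) := by
    rw [← hσ, div_mul_cancel₀ _ hb0, neg_neg]
  have hb : b * (sg q ζ - 1) = nm φ (wt φ ζ ^ n * (ζ : F) ^ i) := by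
    have h' : _ = _ := hab
    rw [hφb] at h'
    rw [nm]
    linear_combination -h'
  rw [bOf, nm_mul, nm_pow] at *
  have hn : nm φ (wt φ ζ) = nm φ (ζ : F) := by
    rw [nm, nm, wt, map_div₀, map_pow, S.frob.invol]
    have h2 : φ ζ ≠ 0 := by simp
    field_simp
  rw [hn, nm_pow] at hb
  field_simp
  linear_combination hb

theorem cell_params {a b : F} (hab : Ok φ a b) (hb : b ≠ 0) {u1 u2 : G} {n : ℕ}
    (h1 : u1 ∈ UG P u h) (h2 : u2 ∈ UG P u h) {x : G} (ex : π x = uE S a b)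
    (e : w * x * w = u1 * h ^ n * w * u2) :
    π u1 = uE S (-a / φ b) b⁻¹ ∧ π u2 = uE S (-a / b) b⁻¹ ∧ (ζ : F) ^ n = (φ b)⁻¹ := by
  obtain ⟨a1, b1, o1, e1⟩ := pi_U_sub H hP h1
  obtain ⟨a2, b2, o2, e2⟩ := pi_U_sub H hP h2
  have e' := congrArg π e
  simp only [map_mul, map_pow, H.pw, H.ph, e1, e2, ex] at e'
  rw [bruhat S hab hb, ← map_pow] at e'
  obtain ⟨rfl, rfl, ht, rfl, rfl⟩ := cell_inj S (ok_bruhat S hab hb).1 (ok_bruhat S hab hb).2 o1 o2 e'
  exact ⟨e1, e2, by simpa using (congrArg Units.val ht).symm⟩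

theorem good_all : ∀ n : ℕ, 1 ≤ n → ∀ a b : F, Ok φ a b → a ≠ 0 → -φ b / b = sg q ζ ^ n → Good H a b := by
  intro n hn
  induction n, hn using Nat.le_induction with
  | base => intro a b hab ha hσ; exact good_base H hP hab ha (by rw [hσ, pow_one])
  | succ n _ ih =>
    intro a b hab ha hσ
    set b0 := bOf φ q ζ a with hb0
    set c := b - b0 with hc
    have o0 : Ok φ a b0 := ok_bOf S a
    have h1 : sg q ζ - 1 ≠ 0 := sub_ne_zero.2 (sg_ne_one S)
    have hb00 : b0 ≠ 0 := div_ne_zero (mul_ne_zero ha (by simpa using ha)) h1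
    have hφb0 : φ b0 = -(sg q ζ * b0) := by
      have h2 : b0 * (sg q ζ - 1) = a * φ a := div_mul_cancel₀ _ h1
      have h3 : _ = _ := o0
      linear_combination h3 + h2
    have hσ0 : -φ b0 / b0 = sg q ζ := by rw [hφb0, neg_neg, mul_div_assoc, div_self hb00, mul_one]
    have hcc : φ c = -c := by
      have h2 : _ = _ := hab
      have h3 : _ = _ := o0
      rw [hc, map_sub]
      linear_combination h2 - h3
    rcases eq_or_ne c 0 with hc0 | hc0
    · rw [sub_eq_zero.1 hc0]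
      exact good_base H hP o0 ha hσ0
    have hb : b ≠ 0 := by
      intro e
      rw [e, map_zero, neg_zero, zero_div] at hσ
      exact pow_ne_zero _ (pow_ne_zero _ ζ.ne_zero) hσ.symm
    obtain ⟨x, hx, ex, u1, hu1, k, u2, hu2, e⟩ := good_base H hP o0 ha hσ0
    obtain ⟨z, hz, ez, v1, hv1, l, v2, hv2, e'⟩ := good_central H hP hcc hc0
    obtain ⟨-, eu2, -⟩ := cell_params H hP o0 hb00 hu1 hu2 ex e
    obtain ⟨ev1, -, el⟩ := cell_params H hP (by simp [Ok, hcc]) hc0 hv1 hv2 ez e'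
    rw [neg_zero, zero_div] at ev1
    have oc : Ok φ 0 c⁻¹ := by simp [Ok, map_inv₀, hcc]
    have om := ok_add S (ok_bruhat S o0 hb00).2 oc
    obtain ⟨y, hy, ey⟩ := U_hpow' H hP (mul_mem hu2 hv1) l
    -- the middle element
    have hyb : Ok φ (-a * c / b0) (-c * b / b0) ∧ π y = uE S (-a * c / b0) (-c * b / b0) := by
      have hφb : φ b0 ≠ 0 := by simpa using hb00
      have o : Ok φ (-a * c / b0) (-c * b / b0) := by
        have h2 : _ = _ := hab
        have h3 : _ = _ := o0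
        have hb' : b = b0 + c := by rw [hc]; ring
        unfold Ok
        simp only [map_div₀, map_mul, map_neg, hcc, hb', map_add]
        field_simp
        linear_combination (-(c ^ 2)) * h3
      refine ⟨o, ?_⟩
      have e1 := congrArg π ey
      rw [map_mul, map_mul, map_mul, eu2, ev1, uE_mul S (ok_bruhat S o0 hb00).2 oc, map_pow, H.ph] at e1
      have e2 := tE_uE S (ζ ^ l) o
      rw [mul_inv_eq_iff_eq_mul] at e2
      have hκ : ((ζ ^ l : Fˣ) : F) = -c⁻¹ := by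
        rw [Units.val_pow_eq_pow_val, el, hcc, inv_neg]
      have hwt : wt φ (ζ ^ l) = c⁻¹ := by
        rw [wt, hκ, map_neg, map_inv₀, hcc, inv_neg, neg_neg, neg_sq]
        field_simp
      have hnm : nm φ ((ζ ^ l : Fˣ) : F) = -(c⁻¹ * c⁻¹) := by
        rw [nm, hκ, map_neg, map_inv₀, hcc, inv_neg, neg_neg, neg_mul]
      have e3 : tE S (ζ ^ l) * uE S (-a * c / b0) (-c * b / b0) = tE S (ζ ^ l) * π y := by
        rw [e2, map_pow, ← e1]
        congr 2
        · rw [hwt]; field_simp; ring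
        · rw [hnm, show b = b0 + c by rw [hc]; ring]; simp [map_neg]; field_simp; ring
      exact (mul_left_cancel e3).symm
    have hya : -a * c / b0 ≠ 0 := div_ne_zero (mul_ne_zero (neg_ne_zero.2 ha) hc0) hb00
    have hσy : -φ (-c * b / b0) / (-c * b / b0) = sg q ζ ^ n := by
      have hs : sg q ζ ≠ 0 := pow_ne_zero _ ζ.ne_zero
      rw [map_div₀, map_mul, map_neg, hcc, neg_neg, hφb0,
        show φ b = -(sg q ζ ^ (n + 1) * b) by rw [← hσ, div_mul_cancel₀ _ hb, neg_neg]]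
      field_simp
      ring
    obtain ⟨y', hy', ey', hCy⟩ := ih _ _ hyb.1 hya hσy
    obtain rfl : y' = y := U_inj H hP hy' hy (ey'.trans hyb.2.symm)
    refine ⟨x * z, mul_mem hx hz, ?_, ?_⟩
    · rw [map_mul, ex, ez, uE_mul S o0 (by simp [Ok, hcc]), hc]
      simp
    · have key : w * (x * z) * w =
          u1 * h ^ k * (h ^ ((q ^ 2 - 1 - q) * l) * (w * y' * w)) * v2 := by
        calc w * (x * z) * w = (w * x * w) * (w * z * w) := by
              calc w * (x * z) * w = w * x * (w * w) * z * w := by rw [H.ww]; group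
                _ = _ := by group
          _ = u1 * h ^ k * w * ((u2 * v1) * h ^ l) * w * v2 := by rw [e, e']; group
          _ = u1 * h ^ k * (w * h ^ l) * y' * w * v2 := by rw [ey]; group
          _ = _ := by rw [w_hpow H hP]; group
      rw [key, mul_assoc u1]
      exact C_mul_U H hP (U_mul_C H hP (h_mul_C H hP (h_mul_C H hP hCy _) _) hu1) hv2

theorem bruhat_G {x : G} (hx : x ∈ UG P u h) (hne : x ≠ 1) : InC P u h w (w * x * w) := by
  obtain ⟨a, b, hab, ex⟩ := pi_U_sub H hP hx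
  obtain ⟨x', hx', ex', hC⟩ : Good H a b := by
    rcases eq_or_ne a 0 with rfl | ha
    · have hb : φ b = -b := by
        have h' : _ = _ := hab
        linear_combination h'
      refine good_central H hP hb fun e => hne ?_
      exact U_inj H hP hx (one_mem _) (by rw [ex, map_one, e, uE_zero])
    · have hb : b ≠ 0 := fun e => by
        have h' : _ = _ := hab
        rw [e, map_zero] at h'
        simp [ha] at h'
      have hb' : φ b ≠ 0 := by simpa using hb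
      have hn1 : nm φ (-φ b / b) = 1 := by
        rw [nm, map_div₀, map_neg, S.frob.invol]; field_simp
      obtain ⟨m, hm⟩ := exists_power S _ (div_ne_zero (neg_ne_zero.2 hb') hb)
      rw [hm, nm, phi_pow S, ← pow_add, pow_eq_one_iff S, N_eq S,
        show m + q * m = m * (q + 1) by ring, Nat.mul_dvd_mul_iff_right (Nat.succ_pos q)] at hn1
      obtain ⟨n, rfl⟩ := hn1
      refine good_all H hP (n + (q + 1)) (by omega) a b hab ha ?_
      rw [hm, sg, ← pow_mul, mul_add, pow_add _ ((q - 1) * n), (pow_eq_one_iff S ((q - 1) * (q + 1))).2 (by rw [N_eq S]),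
        mul_one]
  rwa [U_inj H hP hx hx' (ex.trans ex'.symm)]

omit hP in
/-- The union of the two cells. -/
def InAll (_H : Holds S P π u h w) (g : G) : Prop :=
  (∃ x ∈ UG P u h, ∃ n : ℕ, g = x * h ^ n) ∨ InC P u h w g

theorem all_mem (g : G) : InAll H g := by
  let M : Submonoid G :=
    { carrier := {g | ∀ y, InAll H y → InAll H (g * y)}
      one_mem' := fun y hy => by rwa [one_mul]
      mul_mem' := fun {a b} ha hb y hy => by rw [mul_assoc]; exact ha _ (hb y hy) }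
  have hUM : ∀ x ∈ UG P u h, x ∈ M := by
    rintro x hx y (⟨x', hx', n, rfl⟩ | hy)
    · exact Or.inl ⟨x * x', mul_mem hx hx', n, by group⟩
    · exact Or.inr (U_mul_C H hP hy hx)
  have hhM : ∀ k : ℕ, h ^ k ∈ M := by
    rintro k y (⟨x', hx', n, rfl⟩ | hy)
    · obtain ⟨e, he⟩ := U_hpow H hP hx' k
      exact Or.inl ⟨_, he, k + n, by rw [← mul_assoc, e, pow_add]; group⟩
    · exact Or.inr (h_mul_C H hP hy k)
  have hwM : w ∈ M := by
    rintro y (⟨x, hx, n, rfl⟩ | ⟨u1, h1, n, v, hv, rfl⟩)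
    · rcases eq_or_ne x 1 with rfl | hne
      · exact Or.inr ⟨1, one_mem _, (q ^ 2 - 1 - q) * n, 1, one_mem _, by rw [one_mul, w_hpow H hP]; group⟩
      · obtain ⟨a, ha, k, b, hb, e⟩ := bruhat_G H hP hx hne
        obtain ⟨b', hb', eb⟩ := U_hpow' H hP hb ((q ^ 2 - 1 - q) * n)
        have key : w * (x * h ^ n) = a * h ^ k * (w * h ^ ((q ^ 2 - 1 - q) * n)) * b' * w := by
          calc w * (x * h ^ n) = w * x * (w * w) * h ^ n := by rw [H.ww]; group
            _ = (w * x * w) * (w * h ^ n) := by group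
            _ = a * h ^ k * w * (b * h ^ ((q ^ 2 - 1 - q) * n)) * w := by rw [e, w_hpow H hP]; group
            _ = _ := by rw [eb]; group
        rw [w_hpow H hP] at key
        rcases eq_or_ne b' 1 with rfl | hne'
        · refine Or.inl ⟨a, ha, k + (q ^ 2 - 1 - q) * ((q ^ 2 - 1 - q) * n), ?_⟩
          rw [key]
          calc a * h ^ k * (h ^ ((q ^ 2 - 1 - q) * ((q ^ 2 - 1 - q) * n)) * w) * 1 * w
              = a * h ^ k * h ^ ((q ^ 2 - 1 - q) * ((q ^ 2 - 1 - q) * n)) * (w * w) := by group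
            _ = _ := by rw [H.ww, pow_add]; group
        · refine Or.inr ?_
          rw [key, show a * h ^ k * (h ^ ((q ^ 2 - 1 - q) * ((q ^ 2 - 1 - q) * n)) * w) * b' * w =
            a * (h ^ k * (h ^ ((q ^ 2 - 1 - q) * ((q ^ 2 - 1 - q) * n)) * (w * b' * w))) by group]
          exact U_mul_C H hP (h_mul_C H hP (h_mul_C H hP (bruhat_G H hP hb' hne') _) _) ha
    · rcases eq_or_ne u1 1 with rfl | hne
      · refine Or.inl ?_
        obtain ⟨e, he⟩ := U_hpow H hP hv ((q ^ 2 - 1 - q) * n)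
        refine ⟨_, he, (q ^ 2 - 1 - q) * n, ?_⟩
        calc w * (1 * h ^ n * w * v) = (w * h ^ n) * w * v := by group
          _ = h ^ ((q ^ 2 - 1 - q) * n) * (w * w) * v := by rw [w_hpow H hP]; group
          _ = _ := by rw [H.ww, mul_one, e]
      · refine Or.inr ?_
        have key : w * (u1 * h ^ n * w * v) = (w * u1 * w) * h ^ ((q ^ 2 - 1 - q) * n) * v := by
          calc w * (u1 * h ^ n * w * v) = w * u1 * (w * w) * h ^ n * w * v := by rw [H.ww]; group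
            _ = (w * u1 * w) * (w * h ^ n) * w * v := by group
            _ = (w * u1 * w) * h ^ ((q ^ 2 - 1 - q) * n) * (w * w) * v := by rw [w_hpow H hP]; group
            _ = _ := by rw [H.ww, mul_one]
        rw [key]
        exact C_mul_U H hP (C_mul_h H hP (bruhat_G H hP h1 hne) _) hv
  have hM : ∀ x, x ∈ M := fun x => by
    have hx : x ∈ Subgroup.closure ({u, h, w} : Set G) := by rw [H.gens]; trivial
    rw [← Subgroup.mem_toSubmonoid, Subgroup.closure_toSubmonoid] at hx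
    refine Submonoid.closure_le.2 ?_ hx
    rintro y (hy | hy)
    · rcases hy with rfl | rfl | rfl
      · exact hUM _ (u_mem H hP)
      · simpa using hhM 1
      · exact hwM
    · rw [Set.mem_inv] at hy
      rw [SetLike.mem_coe, ← inv_inv y]
      rcases hy with e | e | e
      · rw [e]; exact hUM _ (inv_mem (u_mem H hP))
      · rw [e, show h⁻¹ = h ^ (q ^ 2 - 1 - 1) from inv_eq_of_mul_eq_one_right (by
          rw [← pow_succ', Nat.sub_add_cancel (N_pos S), h_pow_N H hP])]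
        exact hhM _
      · rw [e, inv_eq_of_mul_eq_one_right H.ww]; exact hwM
  simpa using hM g 1 (Or.inl ⟨1, one_mem _, 0, by simp⟩)

/-- The map to the unitary group is bijective. -/
theorem pi_bijective : Function.Bijective π := by
  classical
  obtain ⟨hf, hc⟩ := U_small H hP
  haveI := hf
  let N := q ^ 2 - 1
  have hN : 0 < N := N_pos S
  have hpow : ∀ n : ℕ, h ^ n = h ^ (n % N) := fun n => pow_eq_pow_mod n (h_pow_N H hP)
  let f : (UG P u h × Fin N) ⊕ (UG P u h × Fin N × UG P u h) → G := Sum.elim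
    (fun x => (x.1 : G) * h ^ (x.2 : ℕ)) (fun x => (x.1 : G) * h ^ (x.2.1 : ℕ) * w * x.2.2)
  have hfs : Function.Surjective f := by
    intro g
    rcases all_mem H hP g with ⟨x, hx, n, rfl⟩ | ⟨x, hx, n, v, hv, rfl⟩
    · exact ⟨Sum.inl (⟨x, hx⟩, ⟨n % N, Nat.mod_lt _ hN⟩), by simp [f, ← hpow]⟩
    · exact ⟨Sum.inr (⟨x, hx⟩, ⟨n % N, Nat.mod_lt _ hN⟩, ⟨v, hv⟩), by simp [f, ← hpow]⟩
  haveI : Finite G := Finite.of_surjective f hfs
  have hsurj : Function.Surjective π := by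
    intro g
    rcases decomp S g with ⟨a, b, t, hab, rfl⟩ | ⟨a, b, t, c, d, hab, hcd, rfl⟩
    · obtain ⟨x, -, ex⟩ := pre H hP hab
      obtain ⟨m, rfl⟩ := S.gen t
      exact ⟨x * h ^ m, by rw [map_mul, map_pow, H.ph, ex, map_pow]⟩
    · obtain ⟨x, -, ex⟩ := pre H hP hab
      obtain ⟨y, -, ey⟩ := pre H hP hcd
      obtain ⟨m, rfl⟩ := S.gen t
      exact ⟨x * h ^ m * w * y, by rw [map_mul, map_mul, map_mul, map_pow, H.ph, H.pw, ex, ey, map_pow]⟩
  refine hsurj.bijective_of_nat_card_le ?_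
  refine (Nat.card_le_card_of_surjective f hfs).trans ?_
  rw [Nat.card_sum, Nat.card_prod, Nat.card_prod, Nat.card_prod, Nat.card_fin, card_IsoG S]
  calc Nat.card (UG P u h) * N + Nat.card (UG P u h) * (N * Nat.card (UG P u h))
      ≤ q ^ 3 * N + q ^ 3 * (N * q ^ 3) := by gcongr
    _ = _ := by ring

end Cfsg.Agent.SU3Pres
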