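import Cfsg.Agent.SU3Pres.Field
import Cfsg.Agent.S0278
import Cfsg.Agent.SpecU3.Lower

/-!
The unitary group of the anti-diagonal form: root group, torus, Bruhat decomposition.
-/

set_option autoImplicit false
set_option maxHeartbeats 1000000

namespace Cfsg.Agent.SU3Pres

open Matrix Cfsg.Agent.Known

variable {F : Type*} [Field F]

/-- The isometries of the anti-diagonal form of determinant one. -/
def IsoG (φ : F →+* F) : Subgroup (SpecialLinearGroup (Fin 3) F) where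
  carrier := {M | SU3.Iso φ M}
  one_mem' := fun a b => by simp
  mul_mem' := fun hA hB => hA.mul hB
  inv_mem' := fun {A} hA a b => by
    have e : ∀ x, A.1 *ᵥ ((A⁻¹).1 *ᵥ x) = x := fun x => by
      rw [mulVec_mulVec, show A.1 * (A⁻¹).1 = 1 from congrArg Subtype.val (mul_inv_cancel A), one_mulVec]
    have := hA ((A⁻¹).1 *ᵥ a) ((A⁻¹).1 *ᵥ b)
    rw [e, e] at this
    exact this.symm

/-- Parameters of elements of the root group. -/
def Ok (φ : F →+* F) (a b : F) : Prop := b + φ b + a * φ a = 0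

variable [Fintype F] {φ : F →+* F} {q p : ℕ} {ζ : Fˣ}
variable (S : Setup φ q p ζ)
include S

/-- Root group elements. -/
noncomputable def uE (a b : F) : IsoG φ :=
  @dite _ (Ok φ a b) (_root_.Classical.propDecidable _)
    (fun h => ⟨SU3.upU φ a b, SU3.iso_upU S.frob.invol h⟩) (fun _ => 1)

/-- The torus. -/
def tE : Fˣ →* IsoG φ where
  toFun t := ⟨SU3.tor φ t t.ne_zero, SU3.iso_tor S.frob.invol _ _⟩
  map_one' := by
    apply Subtype.ext; apply Subtype.ext
    ext i j; fin_cases i <;> fin_cases j <;> simp [SU3.tor]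
  map_mul' s t := by
    apply Subtype.ext; apply Subtype.ext
    show (SU3.tor φ ((s * t : Fˣ) : F) (s * t).ne_zero).1 = (SU3.tor φ (s : F) s.ne_zero).1 * (SU3.tor φ (t : F) t.ne_zero).1
    rw [SU3.val_tor, SU3.val_tor, SU3.val_tor]
    ext i j
    fin_cases i <;> fin_cases j <;>
      simp [Matrix.mul_apply, Fin.sum_univ_three, map_mul] <;> ring

omit S in
/-- The Weyl element. -/
def wE : IsoG φ := ⟨SU3.wJ, SU3.iso_wJ⟩

theorem val_uE {a b : F} (h : Ok φ a b) :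
    (uE S a b).1.1 = !![1, a, b; 0, 1, -φ a; 0, 0, 1] := by
  rw [uE, dif_pos h]; rfl

theorem val_tE (t : Fˣ) :
    (tE S t).1.1 = !![(t : F), 0, 0; 0, φ t / t, 0; 0, 0, (φ t)⁻¹] := rfl

omit S in
theorem val_wE : (wE : IsoG φ).1.1 = !![(0 : F), 0, 1; 0, -1, 0; 1, 0, 0] := rfl

omit S in
theorem ext_mat {g g' : IsoG φ} (h : g.1.1 = g'.1.1) : g = g' := Subtype.ext (Subtype.ext h)

omit S in
theorem val_mul3 (g g' : IsoG φ) : (g * g').1.1 = g.1.1 * g'.1.1 := rfl

theorem ok_add {a b a' b' : F} (h : Ok φ a b) (h' : Ok φ a' b') :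
    Ok φ (a + a') (b + b' - a * φ a') := by
  unfold Ok at *
  rw [map_add, map_sub, map_add, map_mul, S.frob.invol]
  linear_combination h + h'

theorem uE_mul {a b a' b' : F} (h : Ok φ a b) (h' : Ok φ a' b') :
    uE S a b * uE S a' b' = uE S (a + a') (b + b' - a * φ a') := by
  apply ext_mat
  rw [val_mul3, val_uE S h, val_uE S h', val_uE S (ok_add S h h')]
  ext i j
  fin_cases i <;> fin_cases j <;> simp [Matrix.mul_apply, Fin.sum_univ_three] <;> ring

theorem uE_zero : uE S 0 0 = 1 := by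
  apply ext_mat
  rw [val_uE S (by simp [Ok])]
  ext i j
  fin_cases i <;> fin_cases j <;> simp

theorem ok_inv {a b : F} (h : Ok φ a b) : Ok φ (-a) (φ b) := by
  unfold Ok at *
  rw [S.frob.invol, map_neg]
  linear_combination h

theorem uE_inv {a b : F} (h : Ok φ a b) : (uE S a b)⁻¹ = uE S (-a) (φ b) := by
  refine inv_eq_of_mul_eq_one_right ?_
  rw [uE_mul S h (ok_inv S h), add_neg_cancel,
    show b + φ b - a * φ (-a) = 0 by unfold Ok at h; rw [map_neg]; linear_combination h, uE_zero]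

theorem ok_tE (t : Fˣ) {a b : F} (h : Ok φ a b) : Ok φ (wt φ t * a) (nm φ t * b) := by
  unfold Ok at *
  rw [map_mul, map_mul, map_nm S.frob.invol, wt, nm, map_div₀, map_pow, S.frob.invol]
  have h1 := t.ne_zero
  have h2 : φ t ≠ 0 := by simp [t.ne_zero]
  field_simp
  linear_combination ((t : F) * φ t) * h

theorem tE_uE (t : Fˣ) {a b : F} (h : Ok φ a b) :
    tE S t * uE S a b * (tE S t)⁻¹ = uE S (wt φ t * a) (nm φ t * b) := by
  rw [mul_inv_eq_iff_eq_mul]
  apply ext_mat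
  rw [val_mul3, val_mul3, val_tE, val_uE S h, val_uE S (ok_tE S t h)]
  have h1 := t.ne_zero
  have h2 : φ t ≠ 0 := by simp [t.ne_zero]
  ext i j
  fin_cases i <;> fin_cases j <;>
    simp [Matrix.mul_apply, Fin.sum_univ_three, wt, nm, map_mul, map_div₀, map_pow, S.frob.invol] <;>
    field_simp

theorem w_sq : (wE : IsoG φ) * wE = 1 := by
  apply ext_mat
  rw [val_mul3, val_wE]
  ext i j
  fin_cases i <;> fin_cases j <;> simp [Matrix.mul_apply, Fin.sum_univ_three]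

theorem w_tE (t : Fˣ) : wE * tE S t * wE = (tE S (Units.map (φ : F →* F) t))⁻¹ := by
  refine eq_inv_of_mul_eq_one_left ?_
  apply ext_mat
  rw [val_mul3, val_mul3, val_mul3, val_wE, val_tE, val_tE]
  ext i j
  fin_cases i <;> fin_cases j <;> simp [Matrix.mul_apply, Fin.sum_univ_three, S.frob.invol]

theorem ok_bruhat {a b : F} (h : Ok φ a b) (hb : b ≠ 0) : Ok φ (-a / φ b) b⁻¹ ∧ Ok φ (-a / b) b⁻¹ := by
  have h2 : φ b ≠ 0 := by simp [hb]
  unfold Ok at *
  simp only [map_inv₀, map_div₀, map_neg, S.frob.invol]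
  constructor <;> field_simp <;> linear_combination h

theorem bruhat {a b : F} (h : Ok φ a b) (hb : b ≠ 0) :
    wE * uE S a b * wE = uE S (-a / φ b) b⁻¹ * tE S (Units.mk0 (φ b)⁻¹ (by simp [hb])) * wE *
      uE S (-a / b) b⁻¹ := by
  have h2 : φ b ≠ 0 := by simp [hb]
  apply ext_mat
  simp only [val_mul3, val_wE, val_uE S h, val_tE, val_uE S (ok_bruhat S h hb).1,
    val_uE S (ok_bruhat S h hb).2]
  have h' : b + φ b + a * φ a = 0 := h
  ext i j
  fin_cases i <;> fin_cases j <;>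
    simp [Matrix.mul_apply, Fin.sum_univ_three, map_div₀, map_inv₀, map_neg, S.frob.invol] <;>
    field_simp <;> first | linear_combination h' | linear_combination -h' | ring

theorem cell_inj {a b a' b' c d c' d' : F} {t t' : Fˣ} (h1 : Ok φ a b) (h2 : Ok φ c d)
    (h1' : Ok φ a' b') (h2' : Ok φ c' d')
    (e : uE S a b * tE S t * wE * uE S c d = uE S a' b' * tE S t' * wE * uE S c' d') :
    a = a' ∧ b = b' ∧ t = t' ∧ c = c' ∧ d = d' := by
  have e' := congrArg (fun g : IsoG φ => g.1.1) e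
  simp only [val_mul3, val_wE, val_uE S h1, val_uE S h2, val_uE S h1', val_uE S h2', val_tE] at e'
  have e20 := congrFun₂ e' 2 0
  have e21 := congrFun₂ e' 2 1
  have e22 := congrFun₂ e' 2 2
  have e00 := congrFun₂ e' 0 0
  have e10 := congrFun₂ e' 1 0
  simp [Matrix.mul_apply, Fin.sum_univ_three] at e20 e21 e22 e00 e10
  have ht : t = t' := Units.ext (φ.injective e20)
  subst ht
  have hne : φ t ≠ 0 := by simp [t.ne_zero]
  refine ⟨?_, ?_, rfl, ?_, ?_⟩
  · exact φ.injective (by simpa [hne] using e10)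
  · simpa [hne] using e00
  · simpa [hne] using e21
  · simpa [hne] using e22

theorem borel_inj {a b a' b' : F} {t t' : Fˣ} (h : Ok φ a b) (h' : Ok φ a' b')
    (e : uE S a b * tE S t = uE S a' b' * tE S t') : a = a' ∧ b = b' ∧ t = t' := by
  have e' := congrArg (fun g : IsoG φ => g.1.1) e
  simp only [val_mul3, val_uE S h, val_uE S h', val_tE] at e'
  have e00 := congrFun₂ e' 0 0
  have e01 := congrFun₂ e' 0 1
  have e02 := congrFun₂ e' 0 2
  simp [Matrix.mul_apply, Fin.sum_univ_three] at e00 e01 e02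
  have ht : t = t' := Units.ext e00
  subst ht
  have hne : φ t ≠ 0 := by simp [t.ne_zero]
  refine ⟨?_, ?_, rfl⟩
  · simpa [hne, t.ne_zero] using e01
  · simpa [hne] using e02

theorem cell_ne_borel {a b a' b' c d : F} {t t' : Fˣ} (h : Ok φ a b) (h1 : Ok φ a' b') (h2 : Ok φ c d) :
    uE S a b * tE S t ≠ uE S a' b' * tE S t' * wE * uE S c d := by
  intro e
  have e' := congrArg (fun g : IsoG φ => g.1.1) e
  simp only [val_mul3, val_wE, val_uE S h, val_uE S h1, val_uE S h2, val_tE] at e'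
  have e20 := congrFun₂ e' 2 0
  simp [Matrix.mul_apply, Fin.sum_univ_three] at e20
  exact t'.ne_zero (φ.injective (by rw [map_zero]; exact e20.symm))

/-- The root group. -/
noncomputable def UM : Subgroup (IsoG φ) where
  carrier := {g | ∃ a b, Ok φ a b ∧ uE S a b = g}
  one_mem' := ⟨0, 0, by simp [Ok], uE_zero S⟩
  mul_mem' := by
    rintro _ _ ⟨a, b, h, rfl⟩ ⟨a', b', h', rfl⟩
    exact ⟨_, _, ok_add S h h', (uE_mul S h h').symm⟩
  inv_mem' := by
    rintro _ ⟨a, b, h, rfl⟩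
    exact ⟨_, _, ok_inv S h, (uE_inv S h).symm⟩

/-- The parameters as a type. -/
noncomputable def paramEquiv : {x : F × F // Ok φ x.1 x.2} ≃ UM S :=
  Equiv.ofBijective (fun x => ⟨uE S x.1.1 x.1.2, _, _, x.2, rfl⟩) ⟨fun x y e => by
    have e' := congrArg (fun g : UM S => g.1.1.1) e
    simp only [val_uE S x.2, val_uE S y.2] at e'
    exact Subtype.ext (Prod.ext (congrFun₂ e' 0 1) (congrFun₂ e' 0 2)),
    fun g => by obtain ⟨a, b, h, e⟩ := g.2; exact ⟨⟨(a, b), h⟩, Subtype.ext e⟩⟩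

theorem card_skew : Nat.card {c : F // φ c = -c} = q := by
  obtain ⟨θ, hθ0, hθ⟩ := S.frob.hF.exists_skew
  rw [← S.frob.hφ] at hθ
  rw [← S.frob.card_F0]
  refine Nat.card_congr ⟨fun c => ⟨c.1 / θ, by
      show φ (c.1 / θ) = c.1 / θ; rw [map_div₀, c.2, hθ, neg_div_neg_eq]⟩,
    fun s => ⟨s.1 * θ, by rw [map_mul, hθ, SU3.coe_F0 s, mul_neg]⟩,
    fun c => Subtype.ext (div_mul_cancel₀ _ hθ0), fun s => Subtype.ext (mul_div_cancel_right₀ _ hθ0)⟩

theorem exists_ok (a : F) : ∃ b, Ok φ a b := by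
  obtain ⟨b, hb⟩ := S.frob.hF.exists_trace (c := -(a * φ a)) (by
    rw [← S.frob.hφ, map_neg]; exact congrArg Neg.neg (map_nm S.frob.invol a))
  rw [← S.frob.hφ] at hb
  exact ⟨b, by unfold Ok; rw [hb, neg_add_cancel]⟩

theorem card_UM : Nat.card (UM S) = q ^ 3 := by
  choose b hb using exists_ok S
  have e : {x : F × F // Ok φ x.1 x.2} ≃ F × {c : F // φ c = -c} :=
    { toFun := fun x => (x.1.1, ⟨x.1.2 - b x.1.1, by
        have h1 : _ = _ := x.2
        have h2 : _ = _ := hb x.1.1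
        rw [map_sub]; linear_combination h1 - h2⟩)
      invFun := fun y => ⟨(y.1, b y.1 + y.2.1), by
        have h2 : _ = _ := hb y.1
        show _ + _ + _ = 0
        rw [map_add, y.2.2]; linear_combination h2⟩
      left_inv := fun x => Subtype.ext (Prod.ext rfl (by simp))
      right_inv := fun y => Prod.ext rfl (Subtype.ext (by simp)) }
  rw [← Nat.card_congr (paramEquiv S), Nat.card_congr e, Nat.card_prod, card_skew S, Nat.card_eq_fintype_card,
    card_F S]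
  ring

/-- Identification with `SU 3 F q`; central elements are scalar. -/
theorem exists_equiv_su : ∃ _ : IsoG φ ≃* Cfsg.SU 3 F q,
    ∀ g : IsoG φ, g ∈ Subgroup.center (IsoG φ) ↔ ∃ c : F, g.1.1 = scalar (Fin 3) c := by
  classical
  have hF := S.frob
  obtain ⟨z, hz0⟩ := hF.hF.exists_norm (c := (-1 : F)) (by rw [hF.hF.neg_pow, one_pow])
  have hz : z * φ z = -1 := by rw [hF.hφ, ← pow_succ']; exact hz0
  obtain ⟨k, hk0⟩ := hF.hF.exists_trace (c := (-1 : F)) (by rw [hF.hF.neg_pow, one_pow])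
  have hk : k + φ k = -1 := by rw [hF.hφ]; exact hk0
  set P : Matrix (Fin 3) (Fin 3) F := !![1, 0, 1 + k; z, 0, k * z; 0, 1, 0] with hP
  have hz' : z ≠ 0 := by rintro rfl; simp at hz
  have hdet : P.det ≠ 0 := by
    have e : P.det = z := by simp [hP, det_fin_three]; ring
    rw [e]; exact hz'
  have hPu : IsUnit P.det := isUnit_iff_ne_zero.2 hdet
  have hPQ : P * P⁻¹ = 1 := Matrix.mul_nonsing_inv P hPu
  have hQP : P⁻¹ * P = 1 := Matrix.nonsing_inv_mul P hPu
  have hform : ∀ a b, Cfsg.hermForm 3 F q (P *ᵥ a) (P *ᵥ b) = SU3.H φ a b := by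
    intro a b
    simp only [Cfsg.hermForm, ← hF.hφ, SU3.H_eq, hP, mulVec, dotProduct, Fin.sum_univ_three]
    simp [hF.invol]
    linear_combination (a 0 * φ (b 0) + a 0 * φ (b 2) * φ k + a 2 * φ (b 0) * k +
      a 2 * φ (b 2) * k * φ k) * hz + (a 2 * φ (b 2)) * hk
  let fwd : SpecialLinearGroup (Fin 3) F → SpecialLinearGroup (Fin 3) F :=
    fun M => ⟨P * M.1 * P⁻¹, by rw [det_mul, det_mul, M.2, mul_one, ← det_mul, hPQ, det_one]⟩
  let back : SpecialLinearGroup (Fin 3) F → SpecialLinearGroup (Fin 3) F :=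
    fun M => ⟨P⁻¹ * M.1 * P, by rw [det_mul, det_mul, M.2, mul_one, ← det_mul, hQP, det_one]⟩
  have hto : ∀ M, SU3.Iso φ M → fwd M ∈ Cfsg.SU 3 F q := fun M hM a b => by
    show Cfsg.hermForm 3 F q ((P * M.1 * P⁻¹) *ᵥ a) ((P * M.1 * P⁻¹) *ᵥ b) = _
    rw [Matrix.mul_assoc, ← mulVec_mulVec, ← mulVec_mulVec, ← mulVec_mulVec, ← mulVec_mulVec, hform, hM,
      ← hform, mulVec_mulVec, mulVec_mulVec, hPQ, one_mulVec, one_mulVec]
  have hback : ∀ M ∈ Cfsg.SU 3 F q, back M ∈ IsoG φ := fun M hM a b => by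
    show SU3.H φ ((P⁻¹ * M.1 * P) *ᵥ a) ((P⁻¹ * M.1 * P) *ᵥ b) = _
    rw [← hform, mulVec_mulVec, mulVec_mulVec, ← Matrix.mul_assoc, ← Matrix.mul_assoc, hPQ, Matrix.one_mul,
      ← mulVec_mulVec, ← mulVec_mulVec]
    exact (hM _ _).trans (hform a b)
  let e : IsoG φ ≃* Cfsg.SU 3 F q :=
    { toFun := fun M => ⟨fwd M.1, hto M.1 M.2⟩
      invFun := fun M => ⟨back M.1, hback M.1 M.2⟩
      left_inv := fun M => ext_mat (by
        show P⁻¹ * (P * M.1.1 * P⁻¹) * P = M.1.1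
        simp only [← Matrix.mul_assoc, hQP, Matrix.one_mul]
        rw [Matrix.mul_assoc, hQP, Matrix.mul_one])
      right_inv := fun M => Subtype.ext (Subtype.ext (by
        show P * (P⁻¹ * M.1.1 * P) * P⁻¹ = M.1.1
        simp only [← Matrix.mul_assoc, hPQ, Matrix.one_mul]
        rw [Matrix.mul_assoc, hPQ, Matrix.mul_one]))
      map_mul' := fun M M' => Subtype.ext (Subtype.ext (by
        show P * (M.1.1 * M'.1.1) * P⁻¹ = P * M.1.1 * P⁻¹ * (P * M'.1.1 * P⁻¹)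
        calc P * (M.1.1 * M'.1.1) * P⁻¹ = P * M.1.1 * (P⁻¹ * P) * M'.1.1 * P⁻¹ := by
              rw [hQP]; simp [Matrix.mul_assoc]
          _ = _ := by simp only [Matrix.mul_assoc])) }
  refine ⟨e, fun g => ⟨fun hg => ?_, fun ⟨c, hc⟩ => ?_⟩⟩
  · have h1 : e g ∈ Subgroup.center (Cfsg.SU 3 F q) := Subgroup.mem_center_iff.2 fun x => by
      obtain ⟨y, rfl⟩ := e.surjective x
      rw [← map_mul, ← map_mul, Subgroup.mem_center_iff.1 hg y]
    obtain ⟨c, hc⟩ := (SpecU3.mem_center_iff_scalar (card_F S) (e g)).1 h1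
    refine ⟨c, ?_⟩
    have e1 : P⁻¹ * (e g).1.1 * P = g.1.1 := congrArg (fun M : IsoG φ => M.1.1) (e.left_inv g)
    rw [← e1, hc]
    rw [show P⁻¹ * (c • (1 : Matrix (Fin 3) (Fin 3) F)) * P = c • (1 : Matrix (Fin 3) (Fin 3) F) by
      rw [Matrix.mul_smul, Matrix.smul_mul, Matrix.mul_one, hQP]]
    exact smul_one_eq_diagonal c
  · refine Subgroup.mem_center_iff.2 fun x => ext_mat ?_
    rw [val_mul3, val_mul3, hc]
    exact ((Matrix.scalar_commute c (fun r => Commute.all c r) x.1.1).eq).symm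

theorem card_IsoG : Nat.card (IsoG φ) = q ^ 3 * (q ^ 2 - 1) * (q ^ 3 + 1) := by
  obtain ⟨e, -⟩ := exists_equiv_su S
  rw [Nat.card_congr e.toEquiv]
  have h := S0278.result (card_F S) 3 (by norm_num)
  simp only [Finset.prod_range_succ, Finset.prod_range_zero, one_mul] at h
  norm_num at h
  refine Nat.eq_of_mul_eq_mul_left (Nat.succ_pos q) ?_
  rw [h, Nat.succ_eq_add_one]
  ring

/-- Every element lies in one of the two cells. -/
theorem decomp (g : IsoG φ) : (∃ a b t, Ok φ a b ∧ g = uE S a b * tE S t) ∨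
    ∃ a b t c d, Ok φ a b ∧ Ok φ c d ∧ g = uE S a b * tE S t * wE * uE S c d := by
  classical
  let P := {x : F × F // Ok φ x.1 x.2}
  let f : (P × Fˣ) ⊕ (P × Fˣ × P) → IsoG φ := Sum.elim
    (fun x => uE S x.1.1.1 x.1.1.2 * tE S x.2)
    (fun x => uE S x.1.1.1 x.1.1.2 * tE S x.2.1 * wE * uE S x.2.2.1.1 x.2.2.1.2)
  have hf : Function.Injective f := by
    rintro (⟨⟨⟨a, b⟩, h⟩, t⟩ | ⟨⟨⟨a, b⟩, h⟩, t, ⟨⟨c, d⟩, h'⟩⟩)
      (⟨⟨⟨a', b'⟩, k⟩, t'⟩ | ⟨⟨⟨a', b'⟩, k⟩, t', ⟨⟨c', d'⟩, k'⟩⟩) e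
    · obtain ⟨rfl, rfl, rfl⟩ := borel_inj S h k e; rfl
    · exact absurd e (cell_ne_borel S h k k')
    · exact absurd e.symm (cell_ne_borel S k h h')
    · obtain ⟨rfl, rfl, rfl, rfl, rfl⟩ := cell_inj S h h' k k' e; rfl
  have hP : Nat.card P = q ^ 3 := by rw [Nat.card_congr (paramEquiv S)]; exact card_UM S
  have hU : Nat.card Fˣ = q ^ 2 - 1 := by rw [Nat.card_units, Nat.card_eq_fintype_card, card_F S]
  have hc : Nat.card ((P × Fˣ) ⊕ (P × Fˣ × P)) = Nat.card (IsoG φ) := by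
    rw [card_IsoG S, Nat.card_sum, Nat.card_prod, Nat.card_prod, Nat.card_prod, hP, hU]
    ring
  obtain ⟨x, rfl⟩ := (hf.bijective_of_nat_card_le hc.ge).2 g
  rcases x with ⟨⟨⟨a, b⟩, h⟩, t⟩ | ⟨⟨⟨a, b⟩, h⟩, t, ⟨⟨c, d⟩, h'⟩⟩
  · exact Or.inl ⟨a, b, t, h, rfl⟩
  · exact Or.inr ⟨a, b, t, c, d, h, h', rfl⟩

end Cfsg.Agent.SU3Pres
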